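import Cfsg.Agent.Sz.Sub

/-! Solubilizers in the Suzuki groups. -/

set_option autoImplicit false

namespace Cfsg.Agent.Sz

/-- the solubilizer -/
def Sol {G : Type*} [Group G] (x : G) : Set G :=
  {y | Group.IsSolvable (Subgroup.closure ({x, y} : Set G))}

theorem orderOf_conj {G : Type*} [Group G] (t g : G) : orderOf (t * g * t⁻¹) = orderOf g :=
  (MulAut.conj t).orderOf_eq g

namespace Model

variable {G : Type*} [Group G] {F : Type*} [Field F] {m : ℕ} (M : Model G F m)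

theorem mem_conj_one_B {g : G} (h : g ∈ M.B) : g ∈ (M.conj 1).B := by
  rwa [mem_conj_B, one_smul]

theorem mem_Sol {x y : G} : y ∈ Sol x ↔ (∃ t, x ∈ (M.conj t).B ∧ y ∈ (M.conj t).B) ∨
    ∃ U, M.IsTorus U ∧ x ∈ Nor U ∧ y ∈ Nor U := by
  have hx : x ∈ Subgroup.closure ({x, y} : Set G) := Subgroup.subset_closure (by simp)
  have hy : y ∈ Subgroup.closure ({x, y} : Set G) := Subgroup.subset_closure (by simp)
  have key : ∀ L : Subgroup G, Group.IsSolvable L → x ∈ L → y ∈ L → y ∈ Sol x := fun L hL h1 h2 =>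
    Group.isSolvable_of_isSolvable_injective (Subgroup.inclusion_injective
      ((Subgroup.closure_le L).mpr (by rintro _ (rfl | rfl) <;> assumption)))
  constructor
  · intro h
    rcases M.le_of_isSolvable h with ⟨t, ht⟩ | ⟨U, hU, h⟩
    · exact Or.inl ⟨t, ht hx, ht hy⟩
    · exact Or.inr ⟨U, hU, h hx, h hy⟩
  · rintro (⟨t, h1, h2⟩ | ⟨U, hU, h1, h2⟩)
    · exact key _ (M.conj t).isSolvable_B h1 h2
    · exact key _ (IsTorus.isSolvable M hU) h1 h2

theorem IsTorus.mem_of_odd {U : Subgroup G} (hU : M.IsTorus U) {g : G} (hg : g ∈ Nor U)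
    (h : Odd (orderOf g)) : g ∈ U := by
  haveI := M.finG
  have h1 := Subgroup.card_mul_index (U.subgroupOf (Nor U))
  rw [Nat.card_congr (Subgroup.subgroupOfEquivOfLe Subgroup.le_normalizer).toEquiv] at h1
  have h2 : 0 < Nat.card U := Nat.card_pos
  have h3 : (U.subgroupOf (Nor U)).index ∣ 4 := by
    rcases IsTorus.card_Nor M hU with h | h
    · rw [Nat.eq_of_mul_eq_mul_left h2 (h1.trans (h.trans (mul_comm _ _)))]; norm_num
    · rw [Nat.eq_of_mul_eq_mul_left h2 (h1.trans (h.trans (mul_comm _ _)))]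
  have h4 : g ^ 4 ∈ U := by
    obtain ⟨c, hc⟩ := h3
    have := (U.subgroupOf (Nor U)).pow_index_mem ⟨g, hg⟩
    rw [hc, pow_mul]
    exact U.pow_mem this c
  have h5 : g ∈ Subgroup.zpowers (g ^ 4) :=
    mem_zpowers_pow_iff.mpr (h.coprime_two_left.pow_left 2)
  exact Subgroup.zpowers_le.mpr h4 h5

theorem IsTorus.card_inf_Q {U : Subgroup G} (hU : M.IsTorus U) {z : G} (hz : z ∈ Nor U) (hQ : z ∈ M.Q)
    (h1 : z ≠ 1) : Nat.card (M.Q ⊓ Nor U : Subgroup G) * Nat.card U = Nat.card (Nor U) := by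
  haveI := M.finG
  obtain ⟨P, hP⟩ := (M.isPGroup_Q.comap_subtype (K := Nor U)).exists_le_sylow
  obtain ⟨t, ht⟩ := M.exists_le_Q (P.isPGroup'.map (Nor U).subtype)
  have h2 : (M.conj t).Q = M.Q := by
    have e : (M.conj 1).Q = M.Q := by ext g; simp [mem_conj_Q]
    rw [← e]
    exact M.conj_Q_eq_of_mem h1 (ht ⟨⟨z, hz⟩, hP hQ, rfl⟩) (e ▸ hQ)
  have h3 : M.Q ⊓ Nor U = (P : Subgroup (Nor U)).map (Nor U).subtype := by
    apply le_antisymm
    · intro g hg; exact ⟨⟨g, hg.2⟩, hP hg.1, rfl⟩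
    · exact le_inf (h2 ▸ ht) (Subgroup.map_subtype_le _)
  have h4 : Nat.card U ≠ 0 := Nat.card_pos.ne'
  have h5 := Nat.factorization_eq_zero_of_not_dvd (IsTorus.odd_card M hU).not_two_dvd_nat
  rw [h3, Subgroup.card_subtype, P.card_eq_multiplicity]
  rcases IsTorus.card_Nor M hU with h | h
  · rw [h, Nat.factorization_mul (by norm_num) h4, Nat.prime_two.factorization]; simp [h5]
  · rw [h, Nat.factorization_mul (by norm_num) h4, show 4 = 2 ^ 2 from rfl, Nat.prime_two.factorization_pow]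
    simp [h5]

theorem card_Nor_of_not_der {g : G} (h1 : g ≠ 1) (h : Odd (orderOf g)) (hg : ¬ M.Der g) :
    Nat.card (Nor (Cen g)) = 2 * Nat.card (Cen g) := by
  rcases M.trichotomy g with ⟨t, ht⟩ | ⟨t, k, hk, rfl⟩ | hg'
  · exact absurd (M.eq_one_of_odd h ((M.conj t).pow_four_of_mem_Q ht)) h1
  · rw [show Cen ((M.conj t).h k) = (M.conj t).H from (M.conj t).centralizer_h hk, card_Nor_H, card_H]
  · exact absurd hg' hg

theorem card_Sol_der {x : G} (hx : M.Der x) : Nat.card (Sol x) = 4 * Nat.card (Cen x) := by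
  have ho : Odd (orderOf x) := Odd.of_dvd_nat M.odd_sq_add_one (orderOf_dvd_of_pow_eq_one (Der.pow_eq_one M hx))
  have : Sol x = Nor (Cen x) := by
    ext y
    rw [M.mem_Sol]
    constructor
    · rintro (⟨t, h, -⟩ | ⟨U, hU, h1, h2⟩)
      · exact absurd hx (M.not_der_of_mem_B h)
      · rwa [IsTorus.Cen_eq M hU (IsTorus.mem_of_odd M hU h1 ho) (Der.ne_one M hx)]
    · intro h
      exact Or.inr ⟨_, Or.inr ⟨x, hx, rfl⟩, Subgroup.le_normalizer (self_mem_Cen x), h⟩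
  rw [this]
  exact Der.card_Nor M hx

theorem card_Sol_h {k : Fˣ} (hk : k ≠ 1) :
    Nat.card (Sol (M.h k)) = 2 * Nat.card F ^ 2 * (Nat.card F - 1) := by
  haveI := M.finG
  have hH : M.IsTorus M.H := Or.inl ⟨1, by ext g; simp [mem_conj_H]⟩
  have e : Sol (M.h k) = ((M.B : Set G) ∪ (M.conj M.w).B) ∪ Set.range fun l => M.h l * M.w := by
    ext y
    rw [M.mem_Sol]
    constructor
    · rintro (⟨t, h, hy⟩ | ⟨U, hU, h1, h2⟩)
      · rw [mem_conj_B] at h hy
        rcases M.cases_Ω (t • M.inf) with h1 | ⟨a, b, h1⟩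
        · exact Or.inl (Or.inl (by rwa [h1] at hy))
        · rw [h1] at h hy
          obtain ⟨rfl, rfl⟩ := M.h_fix_p hk h
          exact Or.inl (Or.inr (M.mem_conj_B.mpr (by rwa [w_smul_inf])))
      · have h3 := IsTorus.Cen_eq M hU (IsTorus.mem_of_odd M hU h1 (M.odd_orderOf_h k)) (by rwa [Ne, h_eq_one])
        rw [← h3, show Cen (M.h k) = M.H from M.centralizer_h hk, mem_Nor_H] at h2
        rcases h2 with h2 | ⟨l, rfl⟩
        · exact Or.inl (Or.inl (M.H_le_B h2))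
        · exact Or.inr ⟨l, rfl⟩
    · rintro ((h | h) | ⟨l, rfl⟩)
      · exact Or.inl ⟨1, by simp [mem_conj_B], M.mem_conj_one_B h⟩
      · exact Or.inl ⟨M.w, by simp [mem_conj_B], h⟩
      · exact Or.inr ⟨_, hH, Subgroup.le_normalizer (M.h_mem_H k), M.mem_Nor_H.mpr (Or.inr ⟨l, rfl⟩)⟩
  have h1 := Set.ncard_union_add_ncard_inter (M.B : Set G) (M.conj M.w).B
  rw [← Subgroup.coe_inf, ← H_eq_inf] at h1
  have h2 : (Set.range fun l => M.h l * M.w).ncard = Nat.card F - 1 := by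
    rw [Set.ncard_range_of_injective (fun a b h => M.h_injective (mul_right_cancel h)), M.card_units]
  rw [e, Nat.card_coe_set_eq, Set.ncard_union_eq, h2]
  · have h3 := M.card_B
    have h4 := (M.conj M.w).card_B
    have h5 := M.card_H
    rw [← SetLike.coe_sort_coe, Nat.card_coe_set_eq] at h3 h4 h5
    rw [h3, h4, h5] at h1
    rw [h1]; ring
  · rw [Set.disjoint_left]
    rintro _ (h | h) ⟨l, rfl⟩
    · simp [mem_B, mul_smul] at h
    · simp [mem_conj_B, mul_smul] at h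

/-- the standard product of two involutions -/
noncomputable def gb (a b : F) : G := M.u 0 a * (M.w * M.u 0 b * M.w)

theorem tr_gb (a b : F) : M.tr (M.gb a b) = M.σ (a * b) := by
  simp [gb, tr_uwuw, nrm]

theorem gb_spec {a b : F} (ha : a ≠ 0) (hb : b ≠ 0) : M.gb a b ≠ 1 ∧ Odd (orderOf (M.gb a b)) :=
  M.odd_of_tr (by rw [tr_gb]; exact M.σ_ne_zero (mul_ne_zero ha hb))

theorem gb_torus {a b : F} (ha : a ≠ 0) (hb : b ≠ 0) : M.IsTorus (Cen (M.gb a b)) :=
  M.isTorus_Cen (M.gb_spec ha hb).1 (M.gb_spec ha hb).2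

theorem wzw_sq (b : F) : (M.w * M.u 0 b * M.w) ^ 2 = 1 := by
  nth_rewrite 2 [← M.w_inv]
  rw [conj_pow, z_sq, mul_one, mul_inv_cancel]

theorem z_mem_Nor {a b : F} (ha : a ≠ 0) (hb : b ≠ 0) : M.u 0 a ∈ Nor (Cen (M.gb a b)) := by
  refine IsTorus.mem_Nor M (M.gb_torus ha hb) (self_mem_Cen _) (M.gb_spec ha hb).1 ?_
  have : M.u 0 a * M.gb a b * (M.u 0 a)⁻¹ = (M.gb a b)⁻¹ := by
    rw [gb, ← mul_assoc, z_mul_self, one_mul, mul_inv_rev (M.u 0 a),
      inv_eq_of_mul_eq_one_right ((pow_two _).symm.trans (M.wzw_sq b))]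
  rw [this]
  exact Subgroup.inv_mem _ (self_mem_Cen _)

theorem wzw_mem_Nor {a b : F} (ha : a ≠ 0) (hb : b ≠ 0) : M.w * M.u 0 b * M.w ∈ Nor (Cen (M.gb a b)) := by
  have := Subgroup.mul_mem _ (Subgroup.inv_mem _ (M.z_mem_Nor ha hb))
    (Subgroup.le_normalizer (self_mem_Cen (M.gb a b)))
  rwa [gb, inv_mul_cancel_left] at this

theorem exists_tb {a b : F} (ha : a ≠ 0) (hb : b ≠ 0) : ∃ t ∈ Nor (Cen (M.gb a b)),
    t * M.u 0 a * t⁻¹ = M.w * M.u 0 b * M.w ∧ t • M.inf = M.p 0 0 := by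
  obtain ⟨t, ht, -, h1, h2, -⟩ := M.exists_swap_pt (M.p_ne_inf 0 0) (M.wzw_mem_Nor ha hb) (M.wzw_sq b)
    (by
      intro e
      rw [mul_eq_one_iff_eq_inv, w_inv, mul_eq_left, u_eq_one] at e
      exact hb e.2) (by simp [mul_smul]) ha (M.z_mem_Nor ha hb)
  exact ⟨t, ht, h1, h2⟩

theorem mem_Q_of_comm {a : F} (ha : a ≠ 0) {c : G} (h : c * M.u 0 a * c⁻¹ = M.u 0 a) : c ∈ M.Q := by
  obtain ⟨x, y, k, rfl⟩ := M.mem_B'.mp (M.mem_B_of_conj_mem (M.u_mem_Q 0 a) (by simp [u_eq_one, ha])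
    (t := c) (by rw [h]; exact M.u_mem_B _ _))
  rw [uh_conj_z, u_inj, mul_eq_right₀ ha] at h
  rw [show k = 1 from Units.ext (M.mul_σ_eq_one h.2), map_one, mul_one]
  exact M.u_mem_Q _ _

theorem mem_Nor_Cen_conj {g t y : G} : y ∈ Nor (Cen (t * g * t⁻¹)) ↔ t⁻¹ * y * t ∈ Nor (Cen g) := by
  have key : ∀ g t y : G, t⁻¹ * y * t ∈ Nor (Cen g) → y ∈ Nor (Cen (t * g * t⁻¹)) := by
    intro g t y h
    rw [Subgroup.mem_set_normalizer_iff] at h ⊢
    intro c
    have := h (t⁻¹ * c * t)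
    simp only [SetLike.mem_coe] at this ⊢
    rw [Cen_conj, Cen_conj, this]
    congr! 1
    group
  refine ⟨fun h => ?_, key g t y⟩
  have := key (t * g * t⁻¹) t⁻¹ (t⁻¹ * y * t) (by simpa [mul_assoc] using h)
  simpa [mul_assoc] using this

theorem card_Sol_Q {x : G} (hx : x ∈ M.Q) {a : F} (ha : a ≠ 0) (hz : M.u 0 a ∈ Subgroup.zpowers x)
    [Fintype {b : F // b ≠ 0}] :
    Nat.card (Sol x) = Nat.card M.B + ∑ b : {b : F // b ≠ 0},
      Nat.card {v : M.Q // (v : G)⁻¹ * x * v ∈ Nor (Cen (M.gb a b))} *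
        Nat.card (M.Q ⊓ Nor (Cen (M.gb a b)) : Subgroup G) := by
  haveI := M.finG
  have hx1 : x ≠ 1 := by
    rintro rfl
    simp [u_eq_one, ha] at hz
  choose t ht1 ht2 ht3 using fun b : {b : F // b ≠ 0} => M.exists_tb ha b.2
  have hQz : ∀ v ∈ M.Q, v * M.u 0 a * v⁻¹ = M.u 0 a := by
    rintro _ ⟨c, d, rfl⟩; rw [← z_comm, mul_inv_cancel_right]
  let Φ : (Σ b : {b : F // b ≠ 0}, {v : M.Q // (v : G)⁻¹ * x * v ∈ Nor (Cen (M.gb a b))} ×
      (M.Q ⊓ Nor (Cen (M.gb a b)) : Subgroup G)) → G := fun s => s.2.1.1 * (t s.1 * s.2.2) * (s.2.1.1 : G)⁻¹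
  have Φ1 : ∀ s, Φ s • M.inf = (s.2.1.1 : G) • M.p 0 0 := by
    rintro ⟨b, ⟨v, hv⟩, c⟩
    simp only [Φ, mul_smul]
    rw [M.Q_le_B (M.Q.inv_mem v.2), M.Q_le_B c.2.1, ht3]
  have Φ2 : ∀ s, Φ s * M.u 0 a * (Φ s)⁻¹ = s.2.1.1 * (M.w * M.u 0 s.1 * M.w) * (s.2.1.1 : G)⁻¹ := by
    rintro ⟨b, ⟨v, hv⟩, c⟩
    simp only [Φ]
    calc _ = v * (t b * (c * ((v : G)⁻¹ * M.u 0 a * (v : G)⁻¹⁻¹) * (c : G)⁻¹) * (t b)⁻¹) * (v : G)⁻¹ := by group
      _ = _ := by rw [hQz _ (M.Q.inv_mem v.2), hQz _ c.2.1, ht2]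
  have hΦ : Function.Injective Φ := by
    rintro ⟨b, ⟨v, hv⟩, c⟩ ⟨b', ⟨v', hv'⟩, c'⟩ e
    have e1 := (Φ1 _).symm.trans (e ▸ Φ1 _)
    have e2 := (Φ2 _).symm.trans (e ▸ Φ2 _)
    simp only at e1 e2
    obtain rfl : v = v' := by
      obtain ⟨_, p, q, rfl⟩ := v
      obtain ⟨_, p', q', rfl⟩ := v'
      simp only [u_smul_zero, p_inj] at e1
      exact Subtype.ext (by simp only [e1.1, e1.2])
    obtain rfl : b = b' := by
      simp only [mul_left_inj, mul_right_inj, u_inj] at e2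
      exact Subtype.ext e2.2.symm
    obtain rfl : c = c' := by
      simp only [Φ, mul_left_inj, mul_right_inj] at e
      exact Subtype.ext e
    rfl
  have e : Sol x = (M.B : Set G) ∪ Set.range Φ := by
    ext y
    rw [M.mem_Sol]
    constructor
    · rintro (⟨s, h, hy⟩ | ⟨U, hU, h1, h2⟩)
      · rw [mem_conj_B] at h hy
        rw [M.fix_unique_of_mem_Q hx hx1 h] at hy
        exact Or.inl hy
      · rcases M.cases_Ω (y • M.inf) with h | ⟨c, d, h⟩
        · exact Or.inl h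
        right
        set v := M.u c d with hv
        have hvQ : v ∈ M.Q := M.u_mem_Q c d
        obtain ⟨p, q, k, e⟩ := M.eq_uh_of_fix (g := M.w * (v⁻¹ * y * v))
          (by rw [mul_smul, mul_smul, mul_smul, u_smul_inf, h, ← M.u_smul_zero c d, inv_smul_smul, w_smul_zero])
        have e1 : v⁻¹ * y * v = M.w * (M.u p q * M.h k) := by rw [← e, ← mul_assoc, w_mul_w, one_mul]
        set b : {b : F // b ≠ 0} := ⟨k * M.σ k * a, mul_ne_zero (mul_ne_zero k.ne_zero (M.σ_ne_zero k.ne_zero)) ha⟩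
        have e2 : (v⁻¹ * y * v) * M.u 0 a * (v⁻¹ * y * v)⁻¹ = M.w * M.u 0 b * M.w := by
          rw [e1, ← M.uh_conj_z p q k a]
          nth_rewrite 4 [← M.w_inv]
          group
        have hzU : M.u 0 a ∈ Nor U := Subgroup.zpowers_le.mpr h1 hz
        have e3 : v * M.gb a b * v⁻¹ = M.u 0 a * (y * M.u 0 a * y⁻¹) := by
          rw [gb, ← e2]
          calc _ = (v * M.u 0 a * v⁻¹) * (y * (v * M.u 0 a * v⁻¹) * y⁻¹) := by group
            _ = _ := by rw [hQz v hvQ]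
        have e4 : U = Cen (v * M.gb a b * v⁻¹) := by
          refine (IsTorus.Cen_eq M hU (IsTorus.mem_of_odd M hU ?_ ?_) ?_).symm
          · rw [e3]
            exact Subgroup.mul_mem _ hzU (Subgroup.mul_mem _ (Subgroup.mul_mem _ h2 hzU) (Subgroup.inv_mem _ h2))
          · rw [orderOf_conj]; exact (M.gb_spec ha b.2).2
          · simpa using (M.gb_spec ha b.2).1
        rw [e4, mem_Nor_Cen_conj] at h1 h2
        refine ⟨⟨b, ⟨⟨v, hvQ⟩, h1⟩, ⟨(t b)⁻¹ * (v⁻¹ * y * v), M.mem_Q_of_comm ha ?_,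
          Subgroup.mul_mem _ (Subgroup.inv_mem _ (ht1 b)) h2⟩⟩, ?_⟩
        · calc _ = (t b)⁻¹ * ((v⁻¹ * y * v) * M.u 0 a * (v⁻¹ * y * v)⁻¹) * t b := by group
            _ = _ := by rw [e2, ← ht2]; group
        · simp only [Φ]; group
    · rintro (h | ⟨⟨b, ⟨v, hv⟩, c⟩, rfl⟩)
      · exact Or.inl ⟨1, M.mem_conj_one_B (M.Q_le_B hx), M.mem_conj_one_B h⟩
      · refine Or.inr ⟨Cen (v * M.gb a b * (v : G)⁻¹), M.isTorus_Cen (by simpa using (M.gb_spec ha b.2).1)
          (by rw [orderOf_conj]; exact (M.gb_spec ha b.2).2), mem_Nor_Cen_conj.mpr hv,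
          mem_Nor_Cen_conj.mpr ?_⟩
        simpa [Φ, mul_assoc] using Subgroup.mul_mem _ (ht1 b) c.2.2
  rw [e, Nat.card_coe_set_eq, Set.ncard_union_eq, Set.ncard_range_of_injective hΦ, Nat.card_sigma]
  · simp only [Nat.card_prod]
    rfl
  · rw [Set.disjoint_left]
    rintro _ h ⟨s, rfl⟩
    have := (Φ1 s).symm.trans h
    obtain ⟨p, q, e⟩ := s.2.1.1.2
    simp [e] at this

open Classical in
theorem card_inf_gb {a b : F} (ha : a ≠ 0) (hb : b ≠ 0) :
    Nat.card (M.Q ⊓ Nor (Cen (M.gb a b)) : Subgroup G) = if M.Der (M.gb a b) then 4 else 2 := by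
  haveI := M.finG
  have h1 := IsTorus.card_inf_Q M (M.gb_torus ha hb) (M.z_mem_Nor ha hb) (M.u_mem_Q _ _) (by simp [u_eq_one, ha])
  split_ifs with h
  · exact Nat.eq_of_mul_eq_mul_right Nat.card_pos (h1.trans (Der.card_Nor M h))
  · exact Nat.eq_of_mul_eq_mul_right Nat.card_pos
      (h1.trans (M.card_Nor_of_not_der (M.gb_spec ha hb).1 (M.gb_spec ha hb).2 h))

open Classical in
theorem card_not_der {a : F} (ha : a ≠ 0) [Fintype {b : F // b ≠ 0}] :
    (Finset.univ.filter fun b : {b : F // b ≠ 0} => ¬ M.Der (M.gb a b)).card * 2 + 2 = Nat.card F := by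
  haveI := M.finF
  haveI := Fintype.ofFinite Fˣ
  have hne : ∀ k : Fˣ, k ≠ 1 → M.tr (M.h k) ≠ 0 := fun k hk =>
    M.tr_ne_zero (by rwa [Ne, h_eq_one]) (M.odd_orderOf_h k)
  let f : Fˣ → {b : F // b ≠ 0} := fun k => if h : k = 1 then ⟨1, one_ne_zero⟩ else
    ⟨M.τ (M.tr (M.h k)) / a, div_ne_zero (M.τ_ne_zero (hne k h)) ha⟩
  have hf : ∀ k, k ≠ 1 → ∀ b, f k = b ↔ IsConj (M.h k) (M.gb a b) := by
    intro k hk b
    simp only [f, dif_neg hk]
    constructor
    · rintro rfl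
      exact M.isConj_of_tr (hne k hk) (by rw [tr_gb, mul_div_cancel₀ _ ha, σ_τ])
    · intro h
      exact Subtype.ext (by simp only; rw [M.tr_conj h, tr_gb, τ_σ, mul_div_cancel_left₀ _ ha])
  have h1 := Finset.card_eq_sum_card_fiberwise (f := f) (s := Finset.univ.erase 1)
    (t := Finset.univ.filter fun b : {b : F // b ≠ 0} => ¬ M.Der (M.gb a b)) (by
      intro k hk
      obtain ⟨t, ht⟩ := isConj_iff.mp ((hf k (Finset.ne_of_mem_erase hk) _).mp rfl)
      simp only [Finset.coe_filter, Finset.mem_univ, true_and, Set.mem_ofPred_eq]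
      rw [← ht, ← conj_h]
      exact M.not_der_of_mem_B ((M.conj t).h_mem_B k))
  rw [Finset.sum_const_nat (m := 2), Finset.card_erase_of_mem (Finset.mem_univ _), Finset.card_univ,
    ← Nat.card_eq_fintype_card, M.card_units] at h1
  · have := M.eight_le_card
    omega
  · intro b hb
    rcases M.trichotomy (M.gb a b) with ⟨t, ht⟩ | ⟨t, k, hk, e⟩ | hg
    · exact absurd (M.eq_one_of_odd (M.gb_spec ha b.2).2 ((M.conj t).pow_four_of_mem_Q ht)) (M.gb_spec ha b.2).1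
    · rw [conj_h] at e
      have h2 : k ≠ k⁻¹ := fun h => hk (M.unit_eq_one_of_sq (by rw [pow_two]; nth_rewrite 2 [h]; simp))
      rw [← Finset.card_pair h2]
      congr 1
      ext l
      simp only [Finset.mem_filter, Finset.mem_erase, Finset.mem_univ, and_true, Finset.mem_insert,
        Finset.mem_singleton]
      constructor
      · rintro ⟨hl, h3⟩
        obtain ⟨s, hs⟩ := isConj_iff.mp ((isConj_conj t (M.h k)).trans (e ▸ (hf l hl b).mp h3).symm)
        rcases M.mem_of_conj_mem_H hk (hs ▸ M.h_mem_H l) with ⟨r, rfl⟩ | ⟨r, rfl⟩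
        · left
          rw [h_comm, mul_inv_cancel_right] at hs
          exact (M.h_injective hs).symm
        · right
          rw [hw_conj_h, ← map_inv] at hs
          exact (M.h_injective hs).symm
      · rintro (rfl | rfl)
        · exact ⟨hk, (hf _ hk b).mpr (e ▸ isConj_conj _ _)⟩
        · refine ⟨inv_ne_one.mpr hk, (hf _ (inv_ne_one.mpr hk) b).mpr (e ▸ IsConj.trans ?_ (isConj_conj _ _))⟩
          exact (isConj_iff.mpr ⟨M.w, by rw [w_conj_h, map_inv]⟩ : IsConj (M.h k) (M.h k⁻¹)).symm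
    · exact absurd hg (Finset.mem_filter.mp hb).2

open Classical in
theorem card_der_gb {a : F} (ha : a ≠ 0) [Fintype {b : F // b ≠ 0}] :
    (Finset.univ.filter fun b : {b : F // b ≠ 0} => M.Der (M.gb a b)).card * 2 = Nat.card F := by
  have h1 := M.card_not_der ha
  have h2 := Finset.card_filter_add_card_filter_not (s := Finset.univ)
    (fun b : {b : F // b ≠ 0} => M.Der (M.gb a b))
  rw [Finset.card_univ, ← Nat.card_eq_fintype_card, ← Nat.card_congr unitsEquivNeZero, M.card_units] at h2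
  omega

theorem card_Sol_z {a : F} (ha : a ≠ 0) :
    Nat.card (Sol (M.u 0 a)) = Nat.card F ^ 2 * (4 * Nat.card F - 3) := by
  classical
  haveI := M.finF
  haveI := Fintype.ofFinite {b : F // b ≠ 0}
  rw [M.card_Sol_Q (M.u_mem_Q 0 a) ha (Subgroup.mem_zpowers _), card_B]
  have h1 : ∀ b : {b : F // b ≠ 0}, Nat.card {v : M.Q // (v : G)⁻¹ * M.u 0 a * v ∈ Nor (Cen (M.gb a b))} =
      Nat.card F ^ 2 := by
    intro b
    rw [← M.card_Q]
    refine Nat.card_congr (Equiv.subtypeUnivEquiv ?_)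
    rintro ⟨_, c, d, rfl⟩
    rw [mul_assoc, z_comm, inv_mul_cancel_left]
    exact M.z_mem_Nor ha b.2
  rw [Finset.sum_congr rfl fun b _ => by rw [h1, M.card_inf_gb ha b.2], ← Finset.mul_sum, Finset.sum_ite,
    Finset.sum_const, Finset.sum_const, smul_eq_mul, smul_eq_mul, ← mul_add]
  have h2 := M.card_not_der ha
  have h3 := M.card_der_gb ha
  congr 1
  omega

theorem eq_of_z_mem_Nor {a b : F} (ha : a ≠ 0) (hb : b ≠ 0) {c : F} (hc : c ≠ 0)
    (h : M.u 0 c ∈ Nor (Cen (M.gb a b))) : c = a := by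
  haveI := M.char2
  have h1 : M.gb c b ∈ Cen (M.gb a b) := IsTorus.mem_of_odd M (M.gb_torus ha hb)
    (Subgroup.mul_mem _ h (M.wzw_mem_Nor ha hb)) (M.gb_spec hc hb).2
  have h2 := Subgroup.mul_mem _ h1 (Subgroup.inv_mem _ (self_mem_Cen (M.gb a b)))
  have h3 : M.gb c b * (M.gb a b)⁻¹ = M.u 0 (c + a) := by
    rw [← z_mul, ← M.z_inv a, gb, gb]; group
  rw [h3] at h2
  have := M.eq_one_of_odd (IsTorus.odd_orderOf M (M.gb_torus ha hb) h2) (M.u_pow_four _ _)
  rw [u_eq_one] at this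
  grobner

theorem card_conj_mem {c d b : F} (hc : c ≠ 0) (hb : b ≠ 0) (h : M.Der (M.gb (M.σ c * c) b)) :
    Nat.card {v : M.Q // (v : G)⁻¹ * M.u c d * v ∈ Nor (Cen (M.gb (M.σ c * c) b))} = 2 * Nat.card F := by
  haveI := M.char2
  haveI := M.finG
  have ha : M.σ c * c ≠ 0 := mul_ne_zero (M.σ_ne_zero hc) hc
  set a := M.σ c * c with ha'
  set N := Nor (Cen (M.gb a b))
  obtain ⟨d', hd'⟩ : ∃ d', M.u c d' ∈ N := by
    by_contra h1
    push Not at h1
    have h2 : ((M.Q ⊓ N : Subgroup G) : Set G) ⊆ {1, M.u 0 a} := by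
      rintro _ ⟨⟨x, y, rfl⟩, h2⟩
      by_cases hx : x = 0
      · subst hx
        by_cases hy : y = 0
        · left; rw [hy, u_zero]
        · right; rw [M.eq_of_z_mem_Nor ha hb hy h2]; rfl
      · have h3 := N.pow_mem h2 2
        rw [u_sq] at h3
        have h4 := M.eq_of_z_mem_Nor ha hb (mul_ne_zero (M.σ_ne_zero hx) hx) h3
        rw [ha', mul_comm, mul_comm (M.σ c)] at h4
        exact absurd h2 (M.mul_σ_inj h4 ▸ h1 y)
    have h3 := (Set.ncard_le_ncard h2).trans (Set.ncard_insert_le _ _)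
    have h4 := M.card_inf_gb ha hb
    rw [if_pos h, ← SetLike.coe_sort_coe, Nat.card_coe_set_eq] at h4
    rw [h4, Set.ncard_singleton] at h3
    omega
  have h1 : ∀ y, M.u c y ∈ N ↔ y = d' ∨ y = d' + a := by
    intro y
    constructor
    · intro hy
      have h2 := N.mul_mem (N.inv_mem hd') hy
      have h3 : (M.u c d')⁻¹ * M.u c y = M.u 0 (d' + y) := by
        rw [u_inv, u_mul]; congr 1 <;> grobner
      rw [h3] at h2
      by_cases h4 : d' + y = 0
      · left; grobner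
      · right; have := M.eq_of_z_mem_Nor ha hb h4 h2; grobner
    · rintro (rfl | rfl)
      · exact hd'
      · rw [← u_mul_z]; exact N.mul_mem hd' (M.z_mem_Nor ha hb)
  obtain ⟨s, hs⟩ : ∃ s, M.σ s + s = (d + d') / a ∨ M.σ s + s = (d + d') / a + 1 := by
    by_cases h2 : M.T ((d + d') / a) = 0
    · exact (M.exists_add_σ h2).imp fun _ => Or.inl
    · have h01 : ∀ a : ZMod 2, a ≠ 0 → a + 1 = 0 := by decide
      exact (M.exists_add_σ (by rw [map_add, T_one, h01 _ h2])).imp fun _ => Or.inr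
  have h2 : ∀ e f, (M.u e f)⁻¹ * M.u c d * M.u e f ∈ N ↔ e = c * s ∨ e = c * (s + 1) := by
    intro e f
    obtain ⟨r, rfl⟩ : ∃ r, e = c * (r + s) := ⟨e / c + s, by field_simp; grobner⟩
    have h3 : (M.u (c * (r + s)) f)⁻¹ * M.u c d * M.u (c * (r + s)) f =
        M.u c (d + a * (M.σ r + r + (M.σ s + s))) := by
      rw [u_inv, u_mul, u_mul, ha']
      simp only [map_add, map_mul]
      congr 1 <;> grobner
    have h4 : (c * (r + s) = c * s ∨ c * (r + s) = c * (s + 1)) ↔ (r = 0 ∨ r = 1) := by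
      simp only [mul_right_inj' hc, add_comm s 1, add_left_inj, add_eq_right]
    rw [h3, h1, h4]
    have h5 : a * ((d + d') / a) = d + d' := mul_div_cancel₀ _ ha
    generalize (d + d') / a = ρ at *
    constructor
    · intro h6
      by_cases h7 : M.σ r + r = 1
      · exact absurd h7 (M.σ_add_self_ne_one r)
      · refine M.σ_eq_self (mul_left_cancel₀ (mul_ne_zero ha (sub_ne_zero.mpr h7)) ?_)
        rcases hs with hs | hs <;> rcases h6 with h6 | h6 <;> grobner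
    · rintro (rfl | rfl) <;> simp only [map_zero, map_one] <;> rcases hs with hs | hs <;>
        first | (left; grobner) | (right; grobner)
  rw [← Nat.card_eq_fintype_card.trans Fintype.card_bool, ← Nat.card_prod]
  symm
  refine Nat.card_congr (Equiv.ofBijective (fun p => ⟨⟨M.u (c * (s + cond p.1 1 0)) p.2, M.u_mem_Q _ _⟩,
    (h2 _ _).mpr (by cases p.1 <;> simp)⟩) ⟨?_, ?_⟩)
  · rintro ⟨i, f⟩ ⟨j, g⟩ e
    simp only [Subtype.mk.injEq, u_inj, mul_right_inj' hc, add_right_inj] at e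
    obtain ⟨e1, rfl⟩ := e
    cases i <;> cases j <;> simp at e1 ⊢
  · rintro ⟨⟨_, e, f, rfl⟩, h3⟩
    rcases (h2 e f).mp h3 with rfl | rfl
    · exact ⟨(false, f), by simp⟩
    · exact ⟨(true, f), by simp⟩

theorem card_Sol_u {c : F} (hc : c ≠ 0) (d : F) :
    Nat.card (Sol (M.u c d)) = Nat.card F ^ 2 * (Nat.card F + 3) := by
  classical
  haveI := M.finF
  haveI := M.finG
  haveI := Fintype.ofFinite {b : F // b ≠ 0}
  have ha : M.σ c * c ≠ 0 := mul_ne_zero (M.σ_ne_zero hc) hc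
  rw [M.card_Sol_Q (M.u_mem_Q c d) ha (M.u_sq c d ▸ Subgroup.npow_mem_zpowers _ _), card_B]
  have h1 : ∀ b : {b : F // b ≠ 0}, Nat.card {v : M.Q // (v : G)⁻¹ * M.u c d * v ∈
      Nor (Cen (M.gb (M.σ c * c) b))} * Nat.card (M.Q ⊓ Nor (Cen (M.gb (M.σ c * c) b)) : Subgroup G) =
      if M.Der (M.gb (M.σ c * c) b) then 8 * Nat.card F else 0 := by
    intro b
    have h2 := M.card_inf_gb ha b.2
    split_ifs at h2 ⊢ with h
    · rw [M.card_conj_mem hc b.2 h, h2]; ring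
    · rw [mul_eq_zero, Nat.card_eq_zero]
      refine Or.inl (Or.inl ⟨fun v => ?_⟩)
      have h3 := Subgroup.orderOf_dvd_natCard (M.Q ⊓ Nor (Cen (M.gb (M.σ c * c) b)))
        ⟨M.Q.mul_mem (M.Q.mul_mem (M.Q.inv_mem v.1.2) (M.u_mem_Q c d)) v.1.2, v.2⟩
      have h4 := orderOf_conj (v.1 : G)⁻¹ (M.u c d)
      rw [inv_inv] at h4
      rw [h2, h4, M.orderOf_u hc] at h3
      omega
  rw [Finset.sum_congr rfl fun b _ => h1 b, Finset.sum_ite, Finset.sum_const, Finset.sum_const, smul_eq_mul,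
    smul_zero, add_zero]
  have h3 := M.card_der_gb ha
  have h4 := M.eight_le_card
  obtain ⟨n, hn⟩ : ∃ n, Nat.card F = n + 1 := ⟨Nat.card F - 1, by omega⟩
  rw [hn] at h3 ⊢
  rw [Nat.add_sub_cancel]
  nlinarith

end Model

end Cfsg.Agent.Sz
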