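import Cfsg.Agent.Sz.Trace

/-! The minimal degree of a nontrivial complex representation of a Suzuki group. -/

set_option autoImplicit false

namespace Cfsg.Agent.Sz

open Module

theorem card_le_sq_of_corner {V : Type*} [AddCommGroup V] [Module ℂ V] [FiniteDimensional ℂ V]
    {ι : Type*} [Fintype ι] {P : End ℂ V} (E : ι → End ℂ V) (hE : ∀ i, P * E i * P = E i)
    (hl : LinearIndependent ℂ E) :
    Fintype.card ι ≤ finrank ℂ (LinearMap.range P) * finrank ℂ (LinearMap.range P) := by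
  let W := LinearMap.range P
  let Φ : End ℂ W →ₗ[ℂ] End ℂ V :=
    (LinearMap.llcomp ℂ V W V W.subtype).comp (LinearMap.lcomp ℂ W P.rangeRestrict)
  have h1 : LinearIndependent ℂ (fun i => (P.rangeRestrict ∘ₗ E i ∘ₗ W.subtype : End ℂ W)) := by
    refine LinearIndependent.of_comp Φ ?_
    convert hl using 1
    funext i
    rw [← hE i]
    rfl
  have h2 := h1.fintype_card_le_finrank
  rwa [Module.finrank_linearMap] at h2

theorem eq_one_of_trivial {G V : Type*} [Group G] [AddCommGroup V] [Module ℂ V] [FiniteDimensional ℂ V]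
    (ρ : Representation ℂ G V) [h : ρ.IsIrreducible] (h1 : ∀ g, ρ g = 1) : finrank ℂ V ≤ 1 := by
  by_contra h2
  push Not at h2
  haveI : Nontrivial V := Module.nontrivial_of_finrank_pos (R := ℂ) (by omega)
  obtain ⟨v, hv⟩ := exists_ne (0 : V)
  let S : Subrepresentation ρ := ⟨Submodule.span ℂ {v}, fun g x hx => by rw [h1]; exact hx⟩
  rcases h.eq_bot_or_eq_top S with h3 | h3
  · have : v ∈ S.toSubmodule := Submodule.mem_span_singleton_self v
    rw [h3] at this
    exact hv this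
  · have h4 : Submodule.span ℂ {v} = ⊤ := congrArg Subrepresentation.toSubmodule h3
    have := finrank_span_singleton (K := ℂ) hv
    rw [h4, finrank_top] at this
    omega

namespace Model

variable {G : Type*} [Group G] {F : Type*} [Field F] {m : ℕ} (M : Model G F m)

/-- the canonical additive character -/
noncomputable def ψ : AddChar F ℂ :=
  (AddChar.zmodChar 2 (neg_one_sq (R := ℂ))).compAddMonoidHom M.T

theorem ψ_of_zero {x : F} (h : M.T x = 0) : M.ψ x = 1 := by
  simp [ψ, h]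

theorem ψ_of_one {x : F} (h : M.T x = 1) : M.ψ x = -1 := by
  simp [ψ, h, AddChar.zmodChar_apply, ZMod.val_one]

theorem ψ_prim : M.ψ.IsPrimitive := by
  intro a ha h
  obtain ⟨y, hy⟩ := M.exists_T_one ha
  have := DFunLike.congr_fun h y
  rw [AddChar.mulShift_apply, M.ψ_of_one hy, AddChar.one_apply] at this
  norm_num at this

theorem ψ_mul_self (x : F) : M.ψ x * M.ψ x = 1 := by
  haveI := M.char2
  rw [← AddChar.map_add_eq_mul, CharTwo.add_self_eq_zero, AddChar.map_zero_eq_one]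

variable {V : Type*} [AddCommGroup V] [Module ℂ V] (ρ : Representation ℂ G V) [Fintype F]

/-- the projection to an eigenspace of the centre of the Sylow subgroup -/
noncomputable def pr (c : F) : End ℂ V := (Fintype.card F : ℂ)⁻¹ • ∑ b, M.ψ (c * b) • ρ (M.u 0 b)

theorem z_mul_pr (c a : F) : ρ (M.u 0 a) * M.pr ρ c = M.ψ (c * a) • M.pr ρ c := by
  rw [pr, mul_smul_comm, smul_comm]
  congr 1
  rw [Finset.mul_sum, Finset.smul_sum,
    ← Equiv.sum_comp (Equiv.addLeft a) (fun b => M.ψ (c * a) • M.ψ (c * b) • ρ (M.u 0 b))]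
  refine Finset.sum_congr rfl fun b _ => ?_
  rw [mul_smul_comm, ← map_mul, z_mul, Equiv.coe_addLeft, mul_add, AddChar.map_add_eq_mul, smul_smul,
    ← mul_assoc, ψ_mul_self, one_mul]

theorem pr_idem (c : F) : IsIdempotentElem (M.pr ρ c) := by
  have hq : (Fintype.card F : ℂ) ≠ 0 := Nat.cast_ne_zero.mpr Fintype.card_ne_zero
  change M.pr ρ c * M.pr ρ c = M.pr ρ c
  nth_rewrite 1 [pr]
  simp only [smul_mul_assoc, Finset.sum_mul, z_mul_pr, smul_smul, ψ_mul_self, one_smul, Finset.sum_const,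
    Finset.card_univ]
  rw [← Nat.cast_smul_eq_nsmul ℂ, smul_smul, inv_mul_cancel₀ hq, one_smul]

theorem sum_pr : ∑ c, M.pr ρ c = 1 := by
  classical
  have hq : (Fintype.card F : ℂ) ≠ 0 := Nat.cast_ne_zero.mpr Fintype.card_ne_zero
  simp only [pr]
  rw [← Finset.smul_sum, Finset.sum_comm]
  simp only [← Finset.sum_smul, AddChar.sum_mulShift _ M.ψ_prim]
  rw [Finset.sum_eq_single 0 (fun b _ hb => by simp [hb]) (by simp)]
  simp [smul_smul, inv_mul_cancel₀ hq]

theorem h_mul_pr (k : Fˣ) (c : F) :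
    ρ (M.h k) * M.pr ρ (c * (k * M.σ k)) = M.pr ρ c * ρ (M.h k) := by
  have hk : (k : F) * M.σ k ≠ 0 := mul_ne_zero k.ne_zero (M.σ_ne_zero k.ne_zero)
  rw [pr, pr, mul_smul_comm, smul_mul_assoc, Finset.mul_sum, Finset.sum_mul,
    ← Equiv.sum_comp (Equiv.mulLeft₀ _ hk) (fun b => M.ψ (c * b) • ρ (M.u 0 b) * ρ (M.h k))]
  congr 1
  refine Finset.sum_congr rfl fun b _ => ?_
  rw [mul_smul_comm, smul_mul_assoc, ← map_mul, ← map_mul, h_mul_u, Equiv.mulLeft₀_apply, mul_zero,
    mul_assoc c]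

theorem u_mul_pr (x y c : F) : ρ (M.u x y) * M.pr ρ c = M.pr ρ c * ρ (M.u x y) := by
  rw [pr, mul_smul_comm, smul_mul_assoc, Finset.mul_sum, Finset.sum_mul]
  congr 1
  refine Finset.sum_congr rfl fun b _ => ?_
  rw [mul_smul_comm, smul_mul_assoc, ← map_mul, ← map_mul, z_comm]

theorem trace_conj_eq [FiniteDimensional ℂ V] {A B : End ℂ V} (g : G) (h : ρ g * A = B * ρ g) :
    LinearMap.trace ℂ V A = LinearMap.trace ℂ V B := by
  have : B = ρ g * A * ρ g⁻¹ := by rw [h, mul_assoc, ← map_mul, mul_inv_cancel, map_one, mul_one]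
  rw [this, LinearMap.trace_mul_comm, ← mul_assoc, ← map_mul, inv_mul_cancel, map_one, one_mul]

theorem trace_pr [FiniteDimensional ℂ V] {c : F} (hc : c ≠ 0) :
    LinearMap.trace ℂ V (M.pr ρ c) = LinearMap.trace ℂ V (M.pr ρ 1) := by
  obtain ⟨k, rfl⟩ := M.mul_σ_surj c
  have := M.h_mul_pr ρ (Units.mk0 k (left_ne_zero_of_mul hc)) 1
  rw [one_mul] at this
  exact trace_conj_eq ρ _ this

theorem trace_u_pr [FiniteDimensional ℂ V] {x : F} (h0 : x ≠ 0) (h1 : x ≠ 1) (y : F) :
    LinearMap.trace ℂ V (ρ (M.u x y) * M.pr ρ 1) = 0 := by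
  obtain ⟨a, ha⟩ := M.exists_T_comm h0 h1
  have h2 := trace_conj_eq ρ (A := ρ (M.u x y) * M.pr ρ 1) (B := -(ρ (M.u x y) * M.pr ρ 1)) (M.u a 0) (by
    have h3 : M.u a 0 * M.u x y = M.u x y * M.u 0 (M.σ a * x + M.σ x * a) * M.u a 0 := by
      rw [u_mul_z, ← M.u_conj_u a 0, inv_mul_cancel_right]
    rw [← mul_assoc, ← map_mul, h3, map_mul, map_mul, mul_assoc, u_mul_pr, ← mul_assoc, mul_assoc (ρ _),
      z_mul_pr, one_mul, M.ψ_of_one ha]
    simp)
  rw [map_neg] at h2
  linear_combination h2 / 2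

include M in
theorem min_degree [FiniteDimensional ℂ V] [ρ.IsIrreducible] (hV : 2 ≤ finrank ℂ V) :
    2 ^ m * (2 ^ (2 * m + 1) - 1) ≤ finrank ℂ V := by
  classical
  haveI := M.char2
  set d := finrank ℂ (LinearMap.range (M.pr ρ 1)) with hd
  have ht : LinearMap.trace ℂ V (M.pr ρ 1) = d := (LinearMap.IsIdempotentElem.isProj_range _ (M.pr_idem ρ 1)).trace
  have hsum : finrank ℂ V = finrank ℂ (LinearMap.range (M.pr ρ 0)) + (Fintype.card F - 1) * d := by
    have h1 := congrArg (LinearMap.trace ℂ V) (M.sum_pr ρ)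
    rw [map_sum, LinearMap.trace_one, ← Finset.add_sum_erase _ _ (Finset.mem_univ 0),
      (LinearMap.IsIdempotentElem.isProj_range _ (M.pr_idem ρ 0)).trace,
      Finset.sum_congr rfl (fun c hc => M.trace_pr ρ (Finset.ne_of_mem_erase hc)), ht, Finset.sum_const,
      Finset.card_erase_of_mem (Finset.mem_univ _), Finset.card_univ, nsmul_eq_mul] at h1
    exact_mod_cast h1.symm
  have hd0 : d ≠ 0 := by
    intro h0
    rw [h0, mul_zero, add_zero] at hsum
    have h1 : LinearMap.range (M.pr ρ 0) = ⊤ := Submodule.eq_top_of_finrank_eq hsum.symm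
    have h2 : ρ (M.u 0 1) = 1 := by
      have := M.z_mul_pr ρ 0 1
      rw [zero_mul, AddChar.map_zero_eq_one, one_smul] at this
      ext v
      obtain ⟨w, rfl⟩ : v ∈ LinearMap.range (M.pr ρ 0) := h1 ▸ Submodule.mem_top
      exact DFunLike.congr_fun this w
    have h3 := M.eq_top_of_normal_of_z (N := ρ.asGroupHom.ker) one_ne_zero (Units.ext h2)
    have := eq_one_of_trivial ρ fun g => congrArg Units.val
      (show g ∈ ρ.asGroupHom.ker from h3 ▸ Subgroup.mem_top g)
    omega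
  have hl : LinearIndependent ℂ (fun x : M.T.ker => ρ (M.u x 0) * M.pr ρ 1) := by
    rw [Fintype.linearIndependent_iff]
    intro a ha x
    have h1 := congrArg (fun A => LinearMap.trace ℂ V (ρ (M.u x 0)⁻¹ * A)) ha
    simp only [Finset.mul_sum, map_sum, mul_smul_comm, map_smul, ← mul_assoc, ← map_mul, mul_zero,
      map_zero] at h1
    rw [Finset.sum_eq_single x _ (by simp), inv_mul_cancel, map_one, one_mul, ht, smul_eq_mul] at h1
    · exact (mul_eq_zero.mp h1).resolve_right (Nat.cast_ne_zero.mpr hd0)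
    · intro y _ hy
      rw [u_inv, u_mul, M.trace_u_pr ρ, smul_zero]
      · intro h
        exact hy (Subtype.ext (by grobner))
      · intro h
        have h2 : M.T ((x : F) + y) = 0 := by rw [map_add, x.2, y.2, add_zero]
        rw [h, T_one] at h2
        exact one_ne_zero h2
  have h1 := card_le_sq_of_corner (P := M.pr ρ 1) _ (fun x => by
    rw [← mul_assoc, ← u_mul_pr, mul_assoc, mul_assoc, (M.pr_idem ρ 1).eq, (M.pr_idem ρ 1).eq]) hl
  rw [← Nat.card_eq_fintype_card, card_ker_T, ← hd, two_mul, pow_add] at h1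
  have h2 : 2 ^ m ≤ d := Nat.mul_self_le_mul_self_iff.mp h1
  rw [hsum, ← Nat.card_eq_fintype_card, M.card, mul_comm]
  exact (Nat.mul_le_mul_left _ h2).trans (Nat.le_add_left _ _)

end Model

end Cfsg.Agent.Sz
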