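import Cfsg.Agent.Sz.Struct

/-! Ping-pong in the Suzuki groups. -/

set_option autoImplicit false

namespace Cfsg.Agent.Sz

open Matrix Polynomial

theorem coeff_map_mulVec {F : Type*} [Field F] (A : Matrix (Fin 4) (Fin 4) F) (v : Fin 4 → F[X])
    (n : ℕ) : (fun i => ((A.map C *ᵥ v) i).coeff n) = A *ᵥ fun i => (v i).coeff n := by
  funext i
  simp [Matrix.mulVec, dotProduct]

theorem eval_map_mulVec {F : Type*} [Field F] (A : Matrix (Fin 4) (Fin 4) F) (v : Fin 4 → F[X])
    (t : F) : (fun i => ((A.map C *ᵥ v) i).eval t) = A *ᵥ fun i => (v i).eval t := by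
  funext i
  simp [Matrix.mulVec, dotProduct, eval_finsetSum]

namespace Model

variable {G : Type*} [Group G] {F : Type*} [Field F] {m : ℕ} (M : Model G F m)

/-- exponents of the scaled torus -/
def ex (N : ℕ) : Fin 4 → ℕ := ![2 + 2 * N, 2 + N, N, 0]

/-- the polynomial vector attached to a word -/
noncomputable def vec {α : Type*} (g : α → G) (z : α) : List α → Fin 4 → F[X]
  | [] => fun i => C (M.ρ (g z) i 0)
  | x :: L => (M.ρ (g x)).map C *ᵥ fun i =>
      X ^ ex (2 ^ (m + 1)) i * ((M.ρ (g x)⁻¹).map C *ᵥ vec g z L) i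

theorem ex_le (N : ℕ) (i : Fin 4) : ex N i ≤ 2 + 2 * N := by
  fin_cases i <;> simp [ex] <;> omega

theorem ex_lt {N : ℕ} (hN : 0 < N) {i : Fin 4} (hi : i ≠ 0) : ex N i < 2 + 2 * N := by
  fin_cases i <;> simp [ex] at hi ⊢ <;> omega

theorem vec_coeff {α : Type*} (g : α → G) (z : α) (L : List α) :
    ∀ n, L.length * (2 + 2 * 2 ^ (m + 1)) < n → (fun i => (M.vec g z L i).coeff n) = 0 := by
  induction L with
  | nil =>
    intro n hn
    funext i
    simp only [vec, coeff_C]
    rw [if_neg (by omega)]; rfl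
  | cons x L ih =>
    intro n hn
    rw [vec, coeff_map_mulVec]
    convert Matrix.mulVec_zero (M.ρ (g x)) with i
    have := ex_le (2 ^ (m + 1)) i
    rw [List.length_cons, add_mul, one_mul] at hn
    rw [coeff_X_pow_mul', if_pos (by omega), congrFun (coeff_map_mulVec _ _ _) i, ih _ (by omega),
      Matrix.mulVec_zero]

theorem ρ_zero_zero {g : G} (hg : g • M.inf ≠ M.p 0 0) : M.ρ g 0 0 ≠ 0 := by
  obtain ⟨c, hc, h⟩ := M.smul_spec g M.inf
  have h0 := congrFun h 0
  have e : (M.ρ g *ᵥ pt M.σ M.inf) 0 = M.ρ g 0 0 := by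
    simp [inf, pt, Matrix.mulVec, dotProduct, Fin.sum_univ_four]
  rw [e] at h0
  rw [h0]
  rcases M.cases_Ω (g • M.inf) with h1 | ⟨x, y, h1⟩
  · rw [h1]; simpa [inf, pt] using hc
  · rw [h1] at hg ⊢
    have := M.nrm_ne_zero (x := x) (y := y) (by simpa using hg)
    simpa [p, pt, hc] using this

theorem vec_lead {α : Type*} (g : α → G) (z : α) (L : List α)
    (hL : (L ++ [z]).IsChain fun x y => g y • M.inf ≠ g x • M.p 0 0) :
    ∃ c : F, c ≠ 0 ∧ (fun i => (M.vec g z L i).coeff (L.length * (2 + 2 * 2 ^ (m + 1)))) =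
      c • fun i => M.ρ (g (L.headD z)) i 0 := by
  induction L with
  | nil => exact ⟨1, one_ne_zero, by funext i; simp [vec]⟩
  | cons x L ih =>
    rw [List.cons_append, List.isChain_cons] at hL
    obtain ⟨c, hc, h⟩ := ih hL.2
    have h1 : g (L.headD z) • M.inf ≠ g x • M.p 0 0 := hL.1 _ (by cases L <;> simp)
    have h2 := M.ρ_zero_zero (g := (g x)⁻¹ * g (L.headD z)) (by rwa [mul_smul, Ne, inv_smul_eq_iff])
    refine ⟨c * M.ρ ((g x)⁻¹ * g (L.headD z)) 0 0, mul_ne_zero hc h2, ?_⟩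
    rw [vec, coeff_map_mulVec]
    have e : (fun i => (X ^ ex (2 ^ (m + 1)) i * ((M.ρ (g x)⁻¹).map C *ᵥ M.vec g z L) i).coeff
        ((x :: L).length * (2 + 2 * 2 ^ (m + 1)))) =
        Pi.single 0 (c * M.ρ ((g x)⁻¹ * g (L.headD z)) 0 0) := by
      funext i
      have := ex_le (2 ^ (m + 1)) i
      rw [List.length_cons, add_mul, one_mul, coeff_X_pow_mul', if_pos (by omega),
        congrFun (coeff_map_mulVec _ _ _) i]
      by_cases hi : i = 0
      · subst hi
        rw [show ex (2 ^ (m + 1)) 0 = 2 + 2 * 2 ^ (m + 1) from rfl, Nat.add_sub_cancel, h, map_mul]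
        simp [Matrix.mulVec, dotProduct, Matrix.mul_apply, Finset.mul_sum, mul_left_comm]
      · have := ex_lt (Nat.two_pow_pos (m + 1)) hi
        rw [M.vec_coeff g z L _ (by omega), Matrix.mulVec_zero, Pi.single_eq_of_ne hi]; rfl
    rw [e]
    funext i
    simp [mul_comm]

theorem vec_eval {α : Type*} (g : α → G) (z : α) (L : List α) (k : Fˣ) :
    (fun i => (M.vec g z L i).eval (M.τ k)) = (M.τ k ^ (1 + 2 ^ (m + 1))) ^ L.length •
      M.ρ (L.map fun x => g x * M.h k * (g x)⁻¹).prod *ᵥ fun i => M.ρ (g z) i 0 := by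
  induction L with
  | nil => funext i; simp [vec]
  | cons x L ih =>
    have hk := M.τ_ne_zero k.ne_zero
    have e : ∀ v : Fin 4 → F[X], (fun i => (X ^ ex (2 ^ (m + 1)) i * v i).eval (M.τ k)) =
        (M.τ k ^ (1 + 2 ^ (m + 1))) • M.ρ (M.h k) *ᵥ fun i => (v i).eval (M.τ k) := by
      intro v
      funext i
      rw [ρ_h]
      have hs := M.σ_eq (M.τ k)
      generalize M.τ k = μ at *
      generalize 2 ^ (m + 1) = N at *
      have hs0 := M.σ_ne_zero hk
      fin_cases i <;> simp [ex, hM, Matrix.mulVec, dotProduct, Fin.sum_univ_four, pow_add, pow_mul', ← hs] <;>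
        field_simp
    rw [vec, eval_map_mulVec, e, eval_map_mulVec, ih]
    simp only [Matrix.mulVec_smul, Matrix.mulVec_mulVec, smul_smul, ← map_mul, List.map_cons, List.prod_cons,
      List.length_cons, mul_assoc, pow_succ']

theorem exists_word_ne_one {α : Type*} (g : α → G) (z : α) (L : List α) (h0 : L ≠ [])
    (hL : (L ++ [z]).IsChain fun x y => g y • M.inf ≠ g x • M.p 0 0) (hm : 3 * L.length < 2 ^ m) :
    ∃ k, (L.map fun x => g x * M.h k * (g x)⁻¹).prod ≠ 1 := by
  haveI := M.finF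
  haveI := Fintype.ofFinite F
  by_contra h
  push Not at h
  obtain ⟨c, hc, h1⟩ := M.vec_lead g z L hL
  obtain ⟨i, hi⟩ : ∃ i, M.ρ (g (L.headD z)) i 0 ≠ 0 := by
    by_contra h2
    push Not at h2
    have := congrFun (congrFun (congrArg M.ρ (inv_mul_cancel (g (L.headD z)))) 0) 0
    rw [map_mul, Matrix.mul_apply, map_one] at this
    simp only [h2, mul_zero, Finset.sum_const_zero, Matrix.one_apply_eq] at this
    exact zero_ne_one this
  have hl : 0 < L.length := List.length_pos_of_ne_nil h0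
  have hp := Nat.two_pow_pos (m + 1)
  have hlt : (1 + 2 ^ (m + 1)) * L.length < L.length * (2 + 2 * 2 ^ (m + 1)) := by nlinarith
  set R : F[X] := M.vec g z L i - X ^ ((1 + 2 ^ (m + 1)) * L.length) * C (M.ρ (g z) i 0) with hR
  have hR1 : ∀ n, L.length * (2 + 2 * 2 ^ (m + 1)) ≤ n → R.coeff n = (M.vec g z L i).coeff n := by
    intro n hn
    rw [hR, coeff_sub, coeff_X_pow_mul', if_pos (by omega), coeff_C, if_neg (by omega), sub_zero]
  have hR2 : R ≠ 0 := fun e => by
    have := hR1 _ le_rfl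
    rw [e, coeff_zero, congrFun h1 i] at this
    exact mul_ne_zero hc hi this.symm
  have hR3 : R.natDegree ≤ L.length * (2 + 2 * 2 ^ (m + 1)) :=
    natDegree_le_iff_coeff_eq_zero.2 fun n hn => by
      rw [hR1 n hn.le]; exact congrFun (M.vec_coeff g z L n hn) i
  apply mul_ne_zero X_ne_zero hR2
  apply eq_zero_of_natDegree_lt_card_of_eval_eq_zero _ Function.injective_id
  · intro t
    rw [eval_mul, eval_X, id]
    by_cases ht : t = 0
    · rw [ht, zero_mul]
    have := congrFun (M.vec_eval g z L (Units.mk0 _ (M.σ_ne_zero ht))) i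
    rw [h, Units.val_mk0, τ_σ, map_one, Matrix.one_mulVec] at this
    rw [hR, eval_sub, this]
    simp [pow_mul]
  · rw [natDegree_X_mul hR2, ← Nat.card_eq_fintype_card, M.card, pow_succ, two_mul m, pow_add]
    rw [pow_succ] at hR3
    nlinarith

end Model

theorem exists_law_bound (w : FreeGroup ℕ) (hw : w ≠ 1) : ∃ N : ℕ, ∀ {G : Type*} [Group G] {F : Type*}
    [Field F] {m : ℕ} (_ : Model G F m), N ≤ m → ∃ f : ℕ → G, FreeGroup.lift f w ≠ 1 := by
  classical
  set L := w.toWord with hL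
  obtain ⟨n, hn⟩ : ∃ n : ℕ, ∀ x ∈ L, x.1 < n :=
    ⟨(L.map Prod.fst).sum + 1, fun x hx => Nat.lt_succ_of_le
      (List.single_le_sum (by simp) _ (List.mem_map_of_mem hx))⟩
  refine ⟨3 * L.length + n + 1, fun {G} _ {F} _ {m} M hm => ?_⟩
  haveI := M.finF
  haveI := Fintype.ofFinite F
  have hm2 : m < 2 ^ m := Nat.lt_two_pow_self
  obtain ⟨ι⟩ : Nonempty (Fin (n + 1) × Bool ↪ F) :=
    Function.Embedding.nonempty_of_card_le (by
      rw [← Nat.card_eq_fintype_card (α := F), M.card, pow_succ, two_mul, pow_add]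
      simp only [Fintype.card_prod, Fintype.card_fin, Fintype.card_bool]
      nlinarith)
  choose a ha1 ha2 using fun i : Fin (n + 1) => M.exists_smul_pair (a := M.p (ι (i, true)) 0)
    (b := M.p (ι (i, false)) 0) (by simp)
  let g : ℕ × Bool → G := fun x => a (Fin.ofNat _ x.1) * cond x.2 1 M.w
  have hg1 : ∀ x, g x • M.inf = M.p (ι (Fin.ofNat _ x.1, x.2)) 0 := by
    rintro ⟨i, _ | _⟩ <;> simp [g, mul_smul, ha1, ha2]
  have hg2 : ∀ x, g x • M.p 0 0 = M.p (ι (Fin.ofNat _ x.1, !x.2)) 0 := by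
    rintro ⟨i, _ | _⟩ <;> simp [g, mul_smul, ha1, ha2]
  have hch : (L ++ [(n, true)]).IsChain fun x y => x.1 = y.1 → x.2 = y.2 := by
    rw [List.isChain_append]
    refine ⟨FreeGroup.isReduced_toWord, by simp, fun x hx y hy e => ?_⟩
    have := hn x (List.mem_of_getLast? hx)
    obtain rfl : (n, true) = y := by simpa using hy
    simp only at e
    omega
  obtain ⟨k, hk⟩ := M.exists_word_ne_one g (n, true) L (fun e => hw (FreeGroup.toWord_eq_nil_iff.1 e))
    (hch.imp_of_mem_imp fun x y hx hy hxy e => by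
      have hle : ∀ x ∈ L ++ [(n, true)], x.1 < n + 1 := by
        intro x hx
        rcases List.mem_append.mp hx with hx | hx
        · exact (hn x hx).trans (Nat.lt_succ_self n)
        · obtain rfl : x = (n, true) := by simpa using hx
          exact Nat.lt_succ_self n
      rw [hg1, hg2, M.p_inj] at e
      have e1 := ι.injective e.1
      have e2 := congrArg (fun x => x.1.1) e1
      have e3 := congrArg Prod.snd e1
      simp only [Fin.ofNat, Nat.mod_eq_of_lt (hle x hx), Nat.mod_eq_of_lt (hle y hy)] at e2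
      simp only at e3
      rw [hxy e2.symm] at e3
      simp at e3) (by omega)
  refine ⟨fun i => a (Fin.ofNat _ i) * M.h k * (a (Fin.ofNat _ i))⁻¹, ?_⟩
  rw [← FreeGroup.mk_toWord (x := w), FreeGroup.lift_mk]
  convert hk using 3
  funext x
  obtain ⟨i, _ | _⟩ := x
  · simp only [g, cond_false]
    have := M.w_conj_h k
    calc _ = a (Fin.ofNat (n + 1) i) * (M.h k)⁻¹ * (a (Fin.ofNat (n + 1) i))⁻¹ := by group
      _ = _ := by rw [← this]; group
  · simp [g]

end Cfsg.Agent.Sz
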